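import Cfsg.Agent.H47.Ree.Toral

/-!
The numbers of elements of each order in the small Ree group.
-/

set_option autoImplicit false

open Cfsg.Lie Cfsg.Agent.H46

namespace Cfsg.Agent.H47.Ree

open Cfsg.Agent.H48.Ree (Gr)

variable {K : Type*} [Field K] [Fintype K] {m : ℕ}

/-- The elements of order `i` of a cyclic subgroup of order divisible by `i`. -/
theorem card_orderOf_cyclic {G : Type*} [Group G] [Finite G] (A : Subgroup G) [IsCyclic ↥A] {i : ℕ}
    (hi : i ∣ Nat.card ↥A) : Nat.card ↥{a : G | a ∈ A ∧ orderOf a = i} = Nat.totient i := by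
  classical
  haveI : Fintype ↥A := Fintype.ofFinite _
  rw [← IsCyclic.card_orderOf_eq_totient (α := ↥A) (d := i) (by rwa [← Nat.card_eq_fintype_card]),
    ← Fintype.card_subtype, ← Nat.card_eq_fintype_card]
  exact Nat.card_congr
    { toFun := fun a => ⟨⟨a.1, a.2.1⟩, by rw [← Subgroup.orderOf_coe]; exact a.2.2⟩
      invFun := fun a => ⟨a.1.1, a.1.2, by rw [Subgroup.orderOf_coe]; exact a.2⟩
      left_inv := fun a => rfl
      right_inv := fun a => rfl }

/-- The number of elements of an order above one dividing a toral order. -/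
theorem card_order_toral (hm : 1 ≤ m) (hK : Fintype.card K = 3 ^ (2 * m + 1)) {k n : ℕ} (hkn : IsToral m k n)
    {i : ℕ} (hi : 1 < i) (hik : i ∣ k) :
    n * Nat.card {g : ↥(Gr K m) // orderOf g = i} = Nat.totient i * Nat.card ↥(Gr K m) := by
  obtain ⟨A, hA, hAk, hN, hchar⟩ := exists_toral_subgroup (K := K) hm hK hkn
  have hne : ∀ s : ↥(Gr K m), orderOf s = i → Subgroup.zpowers s ≠ ⊥ := fun s hs e => by
    rw [Subgroup.zpowers_eq_bot] at e
    rw [e, orderOf_one] at hs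
    omega
  have hsw := card_sweep (Subgroup.normalizer (A : Set ↥(Gr K m))) {a | a ∈ A ∧ orderOf a = i}
    (fun g hg s hs => ⟨(Subgroup.mem_normalizer_iff.1 hg s).1 hs.1, by rw [orderOf_conj]; exact hs.2⟩)
    fun g s hs h => by
      rw [← hchar _ (Subgroup.zpowers_le.2 hs.1) (hne s hs.2)]
      have e := eq_of_le_cyclic (Subgroup.zpowers_le.2 h.1) (Subgroup.zpowers_le.2 hs.1)
        (by rw [Nat.card_zpowers, Nat.card_zpowers, orderOf_conj])
      have e' : (Subgroup.zpowers s).map (MulAut.conj g).toMonoidHom = Subgroup.zpowers s := by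
        rw [MonoidHom.map_zpowers]; exact e
      refine Subgroup.mem_normalizer_iff.2 fun c => ⟨fun hc => ?_, fun hc => ?_⟩
      · rw [← e']; exact ⟨c, hc, rfl⟩
      · rw [← e'] at hc
        obtain ⟨d, hd, hde⟩ := hc
        exact (MulAut.conj g).injective hde ▸ hd
  obtain ⟨⟨a₀, ha₀, ha₀i⟩⟩ : Nonempty ↥{a : ↥(Gr K m) | a ∈ A ∧ orderOf a = i} :=
    (Nat.card_pos_iff.1 (by rw [card_orderOf_cyclic A (hAk ▸ hik)]; exact Nat.totient_pos.2 (by omega))).1
  have hset : sweep {a : ↥(Gr K m) | a ∈ A ∧ orderOf a = i} = {g | orderOf g = i} := by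
    ext z
    refine ⟨fun ⟨g, _, hg⟩ => (orderOf_conj g z).symm.trans hg, fun hz => ?_⟩
    have hd : i ∣ (3 ^ (2 * m + 1) - 1) / 2 ∨ i ∣ (3 ^ (2 * m + 1) + 1) / 4 ∨
        i ∣ 3 ^ (2 * m + 1) - 3 ^ (m + 1) + 1 ∨ i ∣ 3 ^ (2 * m + 1) + 3 ^ (m + 1) + 1 := by
      rcases hkn with ⟨rfl, -⟩ | ⟨rfl, -⟩ | ⟨rfl, -⟩ | ⟨rfl, -⟩
      exacts [Or.inl hik, Or.inr (Or.inl hik), Or.inr (Or.inr (Or.inl hik)), Or.inr (Or.inr (Or.inr hik))]
    obtain ⟨g, hg⟩ := cyclic_toral_conjugate hm hK i hd (Subgroup.zpowers z) (Subgroup.zpowers a₀) inferInstance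
      inferInstance ((Nat.card_zpowers z).trans hz) ((Nat.card_zpowers a₀).trans ha₀i)
    refine ⟨g, ?_, by rw [orderOf_conj]; exact hz⟩
    exact Subgroup.zpowers_le.2 ha₀ (hg ▸ ⟨z, Subgroup.mem_zpowers z, rfl⟩)
  rw [hset, card_orderOf_cyclic A (hAk ▸ hik), hN] at hsw
  rw [mul_comm]
  exact hsw

/-- The number of elements of an order above two dividing `q - 1`. -/
theorem card_order_H (hK : Fintype.card K = 3 ^ (2 * m + 1)) {i : ℕ} (hi : 2 < i)
    (hiq : i ∣ 3 ^ (2 * m + 1) - 1) :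
    2 * (3 ^ (2 * m + 1) - 1) * Nat.card {g : ↥(Gr K m) // orderOf g = i} =
      Nat.totient i * Nat.card ↥(Gr K m) := by
  haveI := isCyclic_H (m := m) hK
  have hsq : ∀ s : ↥(Gr K m), orderOf s = i → s * s ≠ 1 := fun s hs => sq_ne_of_two_lt (hs ▸ hi)
  have hsw := card_sweep (normH hK) {a | a ∈ (cell (m := m) hK).H ∧ orderOf a = i}
    (fun g hg s hs => by
      rw [← normalizer_H_eq hK hs.1 (hsq s hs.2)] at hg
      exact ⟨(Subgroup.mem_normalizer_iff.1 hg s).1 hs.1, by rw [orderOf_conj]; exact hs.2⟩)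
    fun g s hs h => conj_H_cases hK hs.1 (hsq s hs.2) h.1
  have hset : sweep {a : ↥(Gr K m) | a ∈ (cell (m := m) hK).H ∧ orderOf a = i} = {g | orderOf g = i} := by
    ext z
    refine ⟨fun ⟨g, _, hg⟩ => (orderOf_conj g z).symm.trans hg, fun hz => ?_⟩
    have hz' : orderOf z = i := hz
    obtain ⟨g, hg, -⟩ := (mem_sweep_H hK z).2 ⟨hz' ▸ hiq, hz' ▸ hi⟩
    exact ⟨g, hg, by rw [orderOf_conj]; exact hz⟩
  rw [hset, card_orderOf_cyclic _ (card_H (m := m) hK ▸ hiq), card_normH hK] at hsw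
  rw [mul_comm]
  exact hsw

/-- The number of elements of order twice a divisor above one of `(q + 1) / 4`. -/
theorem card_order_two_toral (hm : 1 ≤ m) (hK : Fintype.card K = 3 ^ (2 * m + 1)) {i : ℕ} (hi : 1 < i)
    (hiq : i ∣ (3 ^ (2 * m + 1) + 1) / 4) :
    6 * (3 ^ (2 * m + 1) + 1) * Nat.card {g : ↥(Gr K m) // orderOf g = 2 * i} =
      3 * Nat.totient i * Nat.card ↥(Gr K m) := by
  classical
  obtain ⟨k, -, hk, -, hq, -, -, -⟩ := q_arith m
  replace hiq : i ∣ k := by rwa [hq, Nat.mul_div_cancel_left k (by norm_num : 0 < 4)] at hiq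
  have hio : Odd i := Odd.of_dvd_nat hk hiq
  obtain ⟨A, hAcard, hAc, hAexp, ⟨a, haA, hao⟩, h4, hN, ⟨T, hT, hTA, hAT⟩, hcen, hall⟩ :=
    exists_torus_data (K := K) hm hK
  have hsq : ∀ s : ↥(Gr K m), orderOf s = 2 * i → s * s ≠ 1 := fun s hs => sq_ne_of_two_lt (by omega)
  have hsw := card_sweep_abelian A {a | a ∈ A ∧ orderOf a = 2 * i} (fun s hs => hcen s hs.1 (hsq s hs.2))
    fun g hg s hs => ⟨(Subgroup.mem_normalizer_iff.1 hg s).1 hs.1, by rw [orderOf_conj]; exact hs.2⟩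
  have hset : sweep {a : ↥(Gr K m) | a ∈ A ∧ orderOf a = 2 * i} = {g | orderOf g = 2 * i} := by
    ext z
    refine ⟨fun ⟨g, _, hg⟩ => (orderOf_conj g z).symm.trans hg, fun hz => ?_⟩
    have hz' : orderOf z = 2 * i := hz
    obtain ⟨g, hg⟩ := hall z (by rw [hz', hq]; exact Nat.mul_dvd_mul (by norm_num) hiq) (by omega)
    exact ⟨g, hg, by rw [orderOf_conj]; exact hz'⟩
  have hcount : Nat.card ↥{a : ↥(Gr K m) | a ∈ A ∧ orderOf a = 2 * i} = 3 * Nat.totient i := by
    have e1 : Nat.card ↥{a : ↥(Gr K m) | a ∈ A ∧ orderOf a = 2 * i} =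
        Nat.card {x : ↥A // orderOf x = 2 * i} := Nat.card_congr
      { toFun := fun a => ⟨⟨a.1, a.2.1⟩, by rw [← Subgroup.orderOf_coe]; exact a.2.2⟩
        invFun := fun a => ⟨a.1.1, a.1.2, by rw [Subgroup.orderOf_coe]; exact a.2⟩
        left_inv := fun a => rfl
        right_inv := fun a => rfl }
    have e2 : Nat.card {p : ↥A × ↥A // orderOf p.1 = 2 ∧ orderOf p.2 = i ∧ p.1 * p.2 = p.2 * p.1} =
        Nat.card {x : ↥A // orderOf x = 2} * Nat.card {x : ↥A // orderOf x = i} := by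
      rw [← Nat.card_prod]
      exact Nat.card_congr
        { toFun := fun p => (⟨p.1.1, p.2.1⟩, ⟨p.1.2, p.2.2.1⟩)
          invFun := fun p => ⟨(p.1.1, p.2.1), p.1.2, p.2.2, Subtype.ext (hAc _ p.1.1.2 _ p.2.1.2)⟩
          left_inv := fun p => rfl
          right_inv := fun p => rfl }
    have e3 : Nat.card {x : ↥A // orderOf x = 2} + 1 = 4 := by
      rw [← h4, ← Finite.card_option]
      refine Nat.card_eq_of_bijective (fun o => o.elim ⟨1, one_mem A, one_mul 1⟩ fun x => ⟨x.1.1, x.1.2, by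
        have h := pow_orderOf_eq_one x.1
        rw [x.2, pow_two] at h
        exact congrArg Subtype.val h⟩) ⟨?_, ?_⟩
      · have hne : ∀ x : {x : ↥A // orderOf x = 2}, (x.1.1 : ↥(Gr K m)) ≠ 1 := fun x e => by
          have h := x.2
          rw [show x.1 = 1 from Subtype.ext e, orderOf_one] at h
          omega
        rintro (_ | x) (_ | y) e
        · rfl
        · exact absurd (congrArg Subtype.val e).symm (hne y)
        · exact absurd (congrArg Subtype.val e) (hne x)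
        · exact congrArg some (Subtype.ext (Subtype.ext (congrArg Subtype.val e :)))
      · rintro ⟨b, hb, hb2⟩
        by_cases hb1 : b = 1
        · exact ⟨none, Subtype.ext hb1.symm⟩
        · exact ⟨some ⟨⟨b, hb⟩, by
            rw [← Subgroup.orderOf_coe]; exact orderOf_eq_prime (by rw [pow_two, hb2]) hb1⟩, rfl⟩
    have e4 : Nat.card {x : ↥A // orderOf x = i} = Nat.totient i := by
      haveI := hT
      have hTi : i ∣ Nat.card ↥T := by
        have hodd : orderOf (a ^ 2) = k := by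
          rw [orderOf_pow_of_dvd two_ne_zero (by rw [hao, hq]; exact ⟨k, by omega⟩), hao]
          omega
        exact hiq.trans (hodd ▸ Subgroup.orderOf_dvd_natCard _ (hAT _ (pow_mem haA 2) (hodd ▸ hk)))
      rw [← card_orderOf_cyclic T hTi]
      exact Nat.card_congr
        { toFun := fun x => ⟨x.1.1, hAT _ x.1.2 (by rw [Subgroup.orderOf_coe, x.2]; exact hio),
            by rw [Subgroup.orderOf_coe]; exact x.2⟩
          invFun := fun x => ⟨⟨x.1, hTA x.2.1⟩, by rw [← Subgroup.orderOf_coe]; exact x.2.2⟩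
          left_inv := fun x => rfl
          right_inv := fun x => rfl }
    rw [e1, card_orderOf_two_mul hio, e2, e4]
    congr 1
    omega
  rw [hset, hcount, hN] at hsw
  rw [mul_comm]
  exact hsw

/-- All the counts. -/
theorem order_counts (hm : 1 ≤ m) (hK : Fintype.card K = 3 ^ (2 * m + 1)) :
    Nat.card {g : ↥(Gr K m) // orderOf g = 2} = (3 ^ (2 * m + 1)) ^ 2 * ((3 ^ (2 * m + 1)) ^ 2 - 3 ^ (2 * m + 1) + 1) ∧
    Nat.card {g : ↥(Gr K m) // orderOf g = 3} = ((3 ^ (2 * m + 1)) ^ 2 - 1) * ((3 ^ (2 * m + 1)) ^ 3 + 1) ∧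
    Nat.card {g : ↥(Gr K m) // orderOf g = 6} = (3 ^ (2 * m + 1)) ^ 2 * (3 ^ (2 * m + 1) - 1) * ((3 ^ (2 * m + 1)) ^ 3 + 1) ∧
    Nat.card {g : ↥(Gr K m) // orderOf g = 9} = (3 ^ (2 * m + 1)) ^ 2 * (3 ^ (2 * m + 1) - 1) * ((3 ^ (2 * m + 1)) ^ 3 + 1) ∧
    (∀ i : ℕ, 2 < i → i ∣ 3 ^ (2 * m + 1) - 1 →
      2 * Nat.card {g : ↥(Gr K m) // orderOf g = i} = Nat.totient i * (3 ^ (2 * m + 1)) ^ 3 * ((3 ^ (2 * m + 1)) ^ 3 + 1)) ∧
    (∀ i : ℕ, 1 < i → i ∣ (3 ^ (2 * m + 1) + 1) / 4 →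
      6 * Nat.card {g : ↥(Gr K m) // orderOf g = i} =
          Nat.totient i * (3 ^ (2 * m + 1)) ^ 3 * (3 ^ (2 * m + 1) - 1) * ((3 ^ (2 * m + 1)) ^ 2 - 3 ^ (2 * m + 1) + 1) ∧
        2 * Nat.card {g : ↥(Gr K m) // orderOf g = 2 * i} =
          Nat.totient i * (3 ^ (2 * m + 1)) ^ 3 * (3 ^ (2 * m + 1) - 1) * ((3 ^ (2 * m + 1)) ^ 2 - 3 ^ (2 * m + 1) + 1)) ∧
    (∀ i : ℕ, 1 < i → i ∣ 3 ^ (2 * m + 1) - 3 ^ (m + 1) + 1 →
      6 * Nat.card {g : ↥(Gr K m) // orderOf g = i} =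
        Nat.totient i * (3 ^ (2 * m + 1)) ^ 3 * ((3 ^ (2 * m + 1)) ^ 2 - 1) * (3 ^ (2 * m + 1) + 3 ^ (m + 1) + 1)) ∧
    (∀ i : ℕ, 1 < i → i ∣ 3 ^ (2 * m + 1) + 3 ^ (m + 1) + 1 →
      6 * Nat.card {g : ↥(Gr K m) // orderOf g = i} =
        Nat.totient i * (3 ^ (2 * m + 1)) ^ 3 * ((3 ^ (2 * m + 1)) ^ 2 - 1) * (3 ^ (2 * m + 1) - 3 ^ (m + 1) + 1)) := by
  refine ⟨card_involutions hK, (card_order_three_nine hK).1, card_order_six hK, (card_order_three_nine hK).2,
    fun i hi hiq => ?_, fun i hi hiq => ⟨?_, ?_⟩, fun i hi hiq => ?_, fun i hi hiq => ?_⟩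
  all_goals obtain ⟨hab, -, hA5, hB5, hq27⟩ := six_arith hm
  all_goals have hR := card_R_factor (K := K) hm hK
  · have h := card_order_H (K := K) hK hi hiq
    rw [card_R hK] at h
    refine Nat.eq_of_mul_eq_mul_left (show 0 < 3 ^ (2 * m + 1) - 1 by omega) ?_
    generalize Nat.card {g : ↥(Gr K m) // orderOf g = i} = N at h ⊢
    generalize 3 ^ (2 * m + 1) = q at h ⊢
    calc (q - 1) * (2 * N) = 2 * (q - 1) * N := by ring
      _ = _ := h
      _ = _ := by ring
  · have h := card_order_toral (K := K) hm hK (Or.inr (Or.inl ⟨rfl, rfl⟩)) hi hiq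
    rw [hR] at h
    refine Nat.eq_of_mul_eq_mul_left (show 0 < 3 ^ (2 * m + 1) + 1 by omega) ?_
    generalize Nat.card {g : ↥(Gr K m) // orderOf g = i} = N at h ⊢
    generalize qA m * qB m = P at h hab
    generalize 3 ^ (2 * m + 1) = q at h hab hq27 ⊢
    have hP : q ^ 2 - q + 1 = P := by
      have := Nat.le_self_pow two_ne_zero q
      omega
    rw [hP]
    calc (q + 1) * (6 * N) = 6 * (q + 1) * N := by ring
      _ = _ := h
      _ = _ := by ring
  · have h := card_order_two_toral (K := K) hm hK hi hiq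
    rw [hR] at h
    refine Nat.eq_of_mul_eq_mul_left (show 0 < 3 * (3 ^ (2 * m + 1) + 1) by omega) ?_
    generalize Nat.card {g : ↥(Gr K m) // orderOf g = 2 * i} = N at h ⊢
    generalize qA m * qB m = P at h hab
    generalize 3 ^ (2 * m + 1) = q at h hab hq27 ⊢
    have hP : q ^ 2 - q + 1 = P := by
      have := Nat.le_self_pow two_ne_zero q
      omega
    rw [hP]
    calc 3 * (q + 1) * (2 * N) = 6 * (q + 1) * N := by ring
      _ = _ := h
      _ = _ := by ring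
  · have h := card_order_toral (K := K) hm hK (Or.inr (Or.inr (Or.inl ⟨rfl, rfl⟩))) hi hiq
    rw [hR] at h
    refine Nat.eq_of_mul_eq_mul_left (show 0 < qA m by omega) ?_
    generalize Nat.card {g : ↥(Gr K m) // orderOf g = i} = N at h ⊢
    change _ = qA m * (_ * qB m)
    generalize qA m = a at h ⊢
    generalize qB m = b at h ⊢
    generalize 3 ^ (2 * m + 1) = q at h hq27 ⊢
    zify [show 1 ≤ q by omega, Nat.one_le_pow 2 q (by omega)] at h ⊢
    linear_combination h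
  · have h := card_order_toral (K := K) hm hK (Or.inr (Or.inr (Or.inr ⟨rfl, rfl⟩))) hi hiq
    rw [hR] at h
    refine Nat.eq_of_mul_eq_mul_left (show 0 < qB m by omega) ?_
    generalize Nat.card {g : ↥(Gr K m) // orderOf g = i} = N at h ⊢
    change _ = qB m * (_ * qA m)
    generalize qA m = a at h ⊢
    generalize qB m = b at h ⊢
    generalize 3 ^ (2 * m + 1) = q at h hq27 ⊢
    zify [show 1 ≤ q by omega, Nat.one_le_pow 2 q (by omega)] at h ⊢
    linear_combination h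

end Cfsg.Agent.H47.Ree
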