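import Cfsg.Agent.H47.Ree.Toral
import Mathlib.GroupTheory.Solvable

/-!
The solvable subgroups of the small Ree group.
-/

set_option autoImplicit false

open Cfsg.Lie Cfsg.Agent.H46

namespace Cfsg.Agent.H47.Ree

open Cfsg.Agent.H48.Ree (Gr)

/-- A nontrivial abelian subgroup of prime exponent, inside `T` and normalised by the solvable group `S`. -/
theorem exists_abelian_normalized {G : Type*} [Group G] [Finite G] (S T : Subgroup G) (hS : Group.IsSolvable ↥S)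
    (hTS : T ≤ S) (hT : T ≠ ⊥) (hnorm : S ≤ Subgroup.normalizer (T : Set G)) :
    ∃ (N : Subgroup G) (p : ℕ), p.Prime ∧ N ≤ T ∧ N ≠ ⊥ ∧ (∀ g ∈ S, ∀ c ∈ N, g * c * g⁻¹ ∈ N) ∧
      (∀ a ∈ N, ∀ b ∈ N, a * b = b * a) ∧ ∀ a ∈ N, a ^ p = 1 := by
  classical
  let D : ℕ → Subgroup ↥S := fun i =>
    Nat.rec (motive := fun _ => Subgroup ↥S) (T.subgroupOf S) (fun _ H => ⁅H, H⁆) i
  have hD : ∀ i, (D i).Normal ∧ D i ≤ derivedSeries ↥S i ∧ D i ≤ T.subgroupOf S := by
    intro i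
    induction i with
    | zero =>
      refine ⟨⟨fun n hn g => ?_⟩, le_top, le_rfl⟩
      exact (Subgroup.mem_normalizer_iff.1 (hnorm g.2) (n : G)).1 hn
    | succ i ih =>
      have hi : (D i).Normal := ih.1
      show (⁅D i, D i⁆).Normal ∧ ⁅D i, D i⁆ ≤ derivedSeries ↥S (i + 1) ∧ ⁅D i, D i⁆ ≤ T.subgroupOf S
      exact ⟨@Subgroup.commutator_normal _ _ (D i) (D i) hi hi, by rw [derivedSeries_succ]; exact Subgroup.commutator_mono ih.2.1 ih.2.1,
        (@Subgroup.commutator_le_left _ _ (D i) (D i) hi).trans ih.2.2⟩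
  obtain ⟨n, hn⟩ := hS.solvable
  have hex : ∃ i, D i = ⊥ := ⟨n, le_bot_iff.1 (hn ▸ (hD n).2.1)⟩
  obtain ⟨j, hj⟩ : ∃ j, Nat.find hex = j + 1 := Nat.exists_eq_succ_of_ne_zero fun h => hT (by
    have h0 := Nat.find_spec hex
    rw [h] at h0
    rw [← Subgroup.map_subgroupOf_eq_of_le hTS]
    exact (congrArg (Subgroup.map S.subtype) h0).trans (Subgroup.map_bot _))
  have hne : D j ≠ ⊥ := Nat.find_min hex (by omega)
  have hcomm : ∀ a ∈ D j, ∀ b ∈ D j, a * b = b * a := by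
    have h := Nat.find_spec hex
    rw [hj] at h
    intro a ha b hb
    exact Subgroup.mem_centralizer_iff.1 (Subgroup.commutator_eq_bot_iff_le_centralizer.1 h hb) a ha
  obtain ⟨p, hp, hpd⟩ := Nat.exists_prime_and_dvd (n := Nat.card ↥(D j))
    fun h => hne (Subgroup.card_eq_one.1 h)
  haveI := Fact.mk hp
  let N : Subgroup G :=
    { carrier := {a | ∃ h : a ∈ S, (⟨a, h⟩ : ↥S) ∈ D j ∧ a ^ p = 1}
      one_mem' := ⟨one_mem S, one_mem (D j), one_pow p⟩
      mul_mem' := by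
        rintro a b ⟨ha, ha', hap⟩ ⟨hb, hb', hbp⟩
        refine ⟨mul_mem ha hb, mul_mem ha' hb', ?_⟩
        rw [(show Commute a b from congrArg Subtype.val (hcomm _ ha' _ hb')).mul_pow, hap, hbp, one_mul]
      inv_mem' := by
        rintro a ⟨ha, ha', hap⟩
        exact ⟨inv_mem ha, inv_mem ha', by rw [inv_pow, hap, inv_one]⟩ }
  refine ⟨N, p, hp, fun a ⟨ha, ha', _⟩ => (hD j).2.2 ha', fun h => ?_, fun g hg c ⟨hc, hc', hcp⟩ => ?_,
    fun a ⟨_, ha', _⟩ b ⟨_, hb', _⟩ => congrArg Subtype.val (hcomm _ ha' _ hb'), fun a ⟨_, _, hap⟩ => hap⟩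
  · obtain ⟨a, ha⟩ := exists_prime_orderOf_dvd_card' (G := ↥(D j)) p hpd
    rw [← Subgroup.orderOf_coe, ← Subgroup.orderOf_coe] at ha
    have hmem : ((a : ↥S) : G) ∈ N := ⟨(a : ↥S).2, a.2, by rw [← ha]; exact pow_orderOf_eq_one _⟩
    rw [h, Subgroup.mem_bot] at hmem
    rw [hmem, orderOf_one] at ha
    exact hp.one_lt.ne ha
  · exact ⟨mul_mem (mul_mem hg hc) (inv_mem hg), (hD j).1.conj_mem _ hc' ⟨g, hg⟩,
      by rw [conj_pow, hcp, mul_one, mul_inv_cancel]⟩

theorem le_normalizer_of_conj {G : Type*} [Group G] [Finite G] {S A : Subgroup G}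
    (h : ∀ g ∈ S, ∀ c ∈ A, g * c * g⁻¹ ∈ A) : S ≤ Subgroup.normalizer (A : Set G) := fun g hg =>
  Subgroup.mem_normalizer_iff.2 fun c => ⟨h g hg c, fun hc => by
    simpa [mul_assoc] using h g⁻¹ (inv_mem hg) _ hc⟩

variable {K : Type*} [Field K] [Fintype K] {m : ℕ}

/-- The conclusion on a solvable subgroup. -/
def InLocal (S : Subgroup ↥(Gr K m)) : Prop :=
  ∃ A : Subgroup ↥(Gr K m), S ≤ Subgroup.normalizer (A : Set ↥(Gr K m)) ∧
    ((∃ P : Sylow 2 ↥(Gr K m), A = P) ∨ (∃ P : Sylow 3 ↥(Gr K m), A = P) ∨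
      (IsCyclic ↥A ∧ ∃ n, IsToral m (Nat.card ↥A) n))

/-- A group permuting the common centraliser of two commuting involutions normalises a torus of order `(q+1)/4`. -/
theorem inLocal_klein (hm : 1 ≤ m) (hK : Fintype.card K = 3 ^ (2 * m + 1)) (S N : Subgroup ↥(Gr K m))
    {a b : ↥(Gr K m)} (haN : a ∈ N) (hbN : b ∈ N) (ha : orderOf a = 2) (hb : orderOf b = 2) (hne : a ≠ b)
    (hab : a * b = b * a) (hN : ∀ g ∈ S, ∀ c ∈ N, g * c * g⁻¹ ∈ N) (hcard : Nat.card ↥N ∣ 4) : InLocal S := by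
  obtain ⟨k, -, hk, -, hq, -, -, -⟩ := q_arith m
  have hk1 : 1 < k := by have := (one_lt_half m hm).2; omega
  obtain ⟨ℓ, hℓ, hℓd⟩ := Nat.exists_prime_and_dvd (n := k) hk1.ne'
  have hℓ2 : ℓ ≠ 2 := fun e => (Nat.not_even_iff_odd.2 hk) (even_iff_two_dvd.2 (e ▸ hℓd))
  have hd : ℓ ∣ 3 ^ (2 * m + 1) + 1 := hq ▸ hℓd.mul_left 4
  obtain ⟨g, hg⟩ := involution_conj hK ha
  have hconj : ∀ u v : ↥(Gr K m), g * u * g⁻¹ * (g * v * g⁻¹) = g * v * g⁻¹ * (g * u * g⁻¹) ↔ u * v = v * u := by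
    intro u v
    constructor
    · intro h
      refine (MulAut.conj g).injective ?_
      show g * (u * v) * g⁻¹ = g * (v * u) * g⁻¹
      calc g * (u * v) * g⁻¹ = g * u * g⁻¹ * (g * v * g⁻¹) := by group
        _ = _ := by rw [h]; group
    · intro h
      calc g * u * g⁻¹ * (g * v * g⁻¹) = g * (u * v) * g⁻¹ := by group
        _ = _ := by rw [h]; group
  obtain ⟨y, hyo, hyt, hyb, hyodd⟩ := klein_torus hK (a := g * b * g⁻¹) (by rw [orderOf_conj, hb])
    (hg ▸ (hconj b a).2 hab.symm) (fun e => hne ((MulAut.conj g).injective (hg.trans e.symm))) hℓ hℓ2 hd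
  set x := g⁻¹ * y * g
  have hyx : g * x * g⁻¹ = y := by simp [x, mul_assoc]
  rw [← hyx] at hyt hyb hyodd
  rw [← hg] at hyt hyodd
  have hxo : orderOf x = ℓ := by rw [← orderOf_conj g x, hyx, hyo]
  have hxa := (hconj _ _).1 hyt
  have hxb := (hconj _ _).1 hyb
  have hodd : ∀ c, c * a = a * c → c * b = b * c → Odd (orderOf c) → c * x = x * c := fun c hca hcb hco =>
    (hconj _ _).1 (hyodd _ ((hconj _ _).2 hca) ((hconj _ _).2 hcb) (by rwa [orderOf_conj]))
  obtain ⟨-, hcomm, -, M, hM, hMm⟩ := nonsplit_torus hK hℓ hℓ2 hd hxo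
  set C := Subgroup.centralizer ({x} : Set ↥(Gr K m))
  have hkn : IsToral m k (6 * (3 ^ (2 * m + 1) + 1)) := Or.inr (Or.inl ⟨by omega, rfl⟩)
  obtain ⟨A, hxA, hAcyc, hAk, -, -, -⟩ := exists_toral hm hK hkn hℓ hℓd hxo
  have hAC : A ≤ C := fun c hc => Subgroup.mem_centralizer_singleton_iff.2 (by
    letI : CommGroup ↥A := IsCyclic.commGroup
    exact congrArg Subtype.val (mul_comm (⟨c, hc⟩ : ↥A) ⟨x, hxA⟩))
  have hNC : N ≤ C := by
    have haC : a ∈ N ⊓ C := ⟨haN, Subgroup.mem_centralizer_singleton_iff.2 hxa.symm⟩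
    have hbC : b ∈ N ⊓ C := ⟨hbN, Subgroup.mem_centralizer_singleton_iff.2 hxb.symm⟩
    have h2 : 2 ∣ Nat.card ↥(N ⊓ C) := ha ▸ Subgroup.orderOf_dvd_natCard _ haC
    have h3 : 2 < Nat.card ↥(N ⊓ C) := by
      by_contra hle
      have e : Nat.card ↥(N ⊓ C) = 2 := by
        have := Nat.le_of_dvd Nat.card_pos h2
        omega
      have hz : ∀ c ∈ N ⊓ C, orderOf c = 2 → Subgroup.zpowers c = N ⊓ C := fun c hc hco =>
        Subgroup.eq_of_le_of_card_ge (Subgroup.zpowers_le.2 hc) (by rw [Nat.card_zpowers, hco, e])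
      have h := hz a haC ha ▸ hbC
      obtain ⟨j, hj⟩ := Subgroup.mem_zpowers_iff.1 h
      have ha2 : a * a = 1 := by rw [← pow_two, ← ha]; exact pow_orderOf_eq_one a
      rcases Int.even_or_odd j with ⟨i, hi⟩ | ⟨i, hi⟩
      · rw [hi, ← two_mul, zpow_mul, zpow_two, ha2, one_zpow] at hj
        rw [← hj, orderOf_one] at hb
        omega
      · rw [hi, zpow_add, zpow_mul, zpow_two, ha2, one_zpow, one_mul, zpow_one] at hj
        exact hne hj
    have h4 := (Subgroup.card_dvd_of_le (inf_le_left : N ⊓ C ≤ N)).trans hcard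
    have := Subgroup.eq_of_le_of_card_ge (inf_le_left : N ⊓ C ≤ N) (by
      have := Nat.le_of_dvd (by norm_num) hcard
      have h5 := Nat.le_of_dvd (by norm_num) h4
      interval_cases Nat.card ↥(N ⊓ C) <;> omega)
    exact this.symm.le.trans inf_le_right
  refine ⟨A, le_normalizer_of_conj fun s hs c hc => ?_, Or.inr (Or.inr ⟨hAcyc, _, hAk.symm ▸ hkn⟩)⟩
  have hAodd : ∀ u ∈ A, Odd (orderOf u) := fun u hu =>
    Odd.of_dvd_nat (hAk.symm ▸ hk) (Subgroup.orderOf_dvd_natCard _ hu)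
  have hmem : ∀ u ∈ A, ∀ v ∈ N, s * u * s⁻¹ * v = v * (s * u * s⁻¹) := fun u hu v hv => by
    have h := hcomm u (hAC hu) _ (hNC (hN s⁻¹ (inv_mem hs) v hv))
    rw [inv_inv] at h
    calc s * u * s⁻¹ * v = s * (u * (s⁻¹ * v * s)) * s⁻¹ := by group
      _ = _ := by rw [h]; group
  have hle : A.map (MulAut.conj s).toMonoidHom ≤ M := by
    rintro _ ⟨u, hu, rfl⟩
    show s * u * s⁻¹ ∈ M
    have ho : Odd (orderOf (s * u * s⁻¹)) := by rw [orderOf_conj]; exact hAodd u hu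
    exact hMm _ (Subgroup.mem_centralizer_singleton_iff.2
      (hodd _ (hmem u hu a haN) (hmem u hu b hbN) ho)) ho
  haveI := hM
  have e := eq_of_le_cyclic hle (fun u hu => hMm u (hAC hu) (hAodd u hu))
    (Subgroup.card_map_of_injective (MulAut.conj s).injective)
  rw [← e]
  exact ⟨c, hc, rfl⟩

theorem eight_dvd (hm : 1 ≤ m) (hK : Fintype.card K = 3 ^ (2 * m + 1)) :
    (Nat.card ↥(Gr K m)).factorization 2 = 3 := by
  obtain ⟨k, k', hk, hk', hq, hq', -, -⟩ := q_arith m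
  have hodd : Odd ((3 ^ (2 * m + 1)) ^ 3 * k' * k * (qA m * qB m)) := by
    refine ((((Odd.pow (by decide)).pow).mul hk').mul hk).mul (Odd.mul ?_ ?_)
    · exact (isToral_pos hm (k := qA m) (n := 6 * qA m) (Or.inr (Or.inr (Or.inl ⟨rfl, rfl⟩)))).2
    · exact (isToral_pos hm (k := qB m) (n := 6 * qB m) (Or.inr (Or.inr (Or.inr ⟨rfl, rfl⟩)))).2
  have e : Nat.card ↥(Gr K m) = 2 ^ 3 * ((3 ^ (2 * m + 1)) ^ 3 * k' * k * (qA m * qB m)) := by
    rw [card_R_factor hm hK, hq, hq']; ring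
  rw [e, Nat.factorization_mul (by norm_num) hodd.pos.ne', Nat.factorization_pow]
  simp [Nat.prime_two.factorization_self,
    Nat.factorization_eq_zero_of_not_dvd (fun h => (Nat.not_even_iff_odd.2 hodd) (even_iff_two_dvd.2 h))]

/-- A normalised elementary abelian subgroup settles the question unless it has order two. -/
theorem inLocal_of_abelian (hm : 1 ≤ m) (hK : Fintype.card K = 3 ^ (2 * m + 1)) (S N : Subgroup ↥(Gr K m)) {p : ℕ}
    (hp : p.Prime) (hne : N ≠ ⊥) (hN : ∀ g ∈ S, ∀ c ∈ N, g * c * g⁻¹ ∈ N)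
    (hc : ∀ a ∈ N, ∀ b ∈ N, a * b = b * a) (hexp : ∀ a ∈ N, a ^ p = 1) :
    InLocal S ∨ (p = 2 ∧ Nat.card ↥N = 2) := by
  classical
  haveI := Fact.mk hp
  have hord : ∀ a ∈ N, a ≠ 1 → orderOf a = p := fun a ha ha1 => orderOf_eq_prime (hexp a ha) ha1
  obtain ⟨x, hx, hx1⟩ := (Subgroup.bot_or_exists_ne_one N).resolve_left hne
  have hNp : IsPGroup p ↥N := fun a => ⟨1, by rw [pow_one]; exact Subtype.ext (hexp a a.2)⟩
  by_cases h3 : p = 3
  · subst h3
    obtain ⟨P, hP⟩ := hNp.exists_le_sylow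
    refine Or.inl ⟨P, fun g hg => ?_, Or.inr (Or.inl ⟨P, rfl⟩)⟩
    apply Sylow.smul_eq_iff_mem_normalizer.1
    by_contra hne'
    have h := H48.Ree.sylow_three_trivial_inter hK _ _ hne'
    have hx' : x ∈ ((g • P : Sylow 3 ↥(Gr K m)) : Subgroup ↥(Gr K m)) ⊓ (P : Subgroup ↥(Gr K m)) := by
      refine ⟨?_, hP hx⟩
      show x ∈ ((g • P : Sylow 3 ↥(Gr K m)) : Subgroup ↥(Gr K m))
      rw [Sylow.coe_subgroup_smul, Subgroup.mem_pointwise_smul_iff_inv_smul_mem]
      simpa [MulAut.smul_def, mul_assoc] using hP (hN g⁻¹ (inv_mem hg) x hx)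
    rw [h, Subgroup.mem_bot] at hx'
    exact hx1 hx'
  obtain ⟨kk, kk', hk, hk', hq, hq', -, -⟩ := q_arith m
  by_cases h2 : p = 2
  · subst h2
    by_cases hcard : Nat.card ↥N = 2
    · exact Or.inr ⟨rfl, hcard⟩
    left
    obtain ⟨P, hP⟩ := hNp.exists_le_sylow
    have hP8 : Nat.card ↥(P : Subgroup ↥(Gr K m)) = 8 := by
      rw [P.card_eq_multiplicity, eight_dvd hm hK]; norm_num
    have hdv : Nat.card ↥N ∣ 8 := hP8 ▸ Subgroup.card_dvd_of_le hP
    by_cases h8 : Nat.card ↥N = 8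
    · exact ⟨P, fun g hg => (Subgroup.eq_of_le_of_card_ge hP (by rw [hP8, h8])) ▸ le_normalizer_of_conj hN hg,
        Or.inl ⟨P, rfl⟩⟩
    have h4 : Nat.card ↥N ∣ 4 := by
      have := Nat.le_of_dvd (by norm_num) hdv
      interval_cases h : Nat.card ↥N <;> omega
    obtain ⟨b, hb, hb1, hbx⟩ : ∃ b ∈ N, b ≠ 1 ∧ x ≠ b := by
      by_contra hcon
      push Not at hcon
      have hle : N ≤ Subgroup.zpowers x := fun c hc' => by
        by_cases hc1 : c = 1
        · rw [hc1]; exact one_mem _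
        · rw [← hcon c hc' hc1]; exact Subgroup.mem_zpowers x
      have e := Subgroup.card_dvd_of_le hle
      rw [Nat.card_zpowers, hord x hx hx1] at e
      rcases (Nat.dvd_prime Nat.prime_two).1 e with h | h
      · exact hne (Subgroup.card_eq_one.1 h)
      · exact hcard h
    exact inLocal_klein hm hK S N hx hb (hord x hx hx1) (hord b hb hb1) hbx (hc x hx b hb) hN h4
  · left
    have hxo := hord x hx hx1
    have hdR : p ∣ Nat.card ↥(Gr K m) := hxo ▸ orderOf_dvd_natCard x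
    rw [card_R_factor hm hK] at hdR
    obtain ⟨k, n, hkn, hpk⟩ : ∃ k n, IsToral m k n ∧ p ∣ k := by
      rcases hp.dvd_mul.1 hdR with h | h
      · rcases hp.dvd_mul.1 h with h | h
        · rcases hp.dvd_mul.1 h with h | h
          · exact absurd ((Nat.prime_dvd_prime_iff_eq hp Nat.prime_three).1
              (hp.dvd_of_dvd_pow (hp.dvd_of_dvd_pow h))) h3
          · refine ⟨kk', _, Or.inl ⟨by omega, rfl⟩, ?_⟩
            rw [hq'] at h
            exact (hp.dvd_mul.1 h).resolve_left fun h => h2 ((Nat.prime_dvd_prime_iff_eq hp Nat.prime_two).1 h)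
        · refine ⟨kk, _, Or.inr (Or.inl ⟨by omega, rfl⟩), ?_⟩
          rw [hq, show 4 = 2 ^ 2 from rfl] at h
          exact (hp.dvd_mul.1 h).resolve_left fun h =>
            h2 ((Nat.prime_dvd_prime_iff_eq hp Nat.prime_two).1 (hp.dvd_of_dvd_pow h))
      · rcases hp.dvd_mul.1 h with h | h
        · exact ⟨_, _, Or.inr (Or.inr (Or.inl ⟨rfl, rfl⟩)), h⟩
        · exact ⟨_, _, Or.inr (Or.inr (Or.inr ⟨rfl, rfl⟩)), h⟩
    obtain ⟨M, hM, hMm⟩ := odd_centralizer_cyclic hK hp h2 h3 (by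
      rcases hkn with ⟨rfl, -⟩ | ⟨rfl, -⟩ | ⟨rfl, -⟩ | ⟨rfl, -⟩
      exacts [Or.inl hpk, Or.inr (Or.inl hpk), Or.inr (Or.inr (Or.inl hpk)), Or.inr (Or.inr (Or.inr hpk))]) x hxo
    have hNM : N ≤ M := fun c hc' => hMm c (hc c hc' x hx) (by
      by_cases hc1 : c = 1
      · rw [hc1, orderOf_one]; exact odd_one
      · rw [hord c hc' hc1]; exact hp.odd_of_ne_two h2)
    haveI := hM
    have hNx : N = Subgroup.zpowers x := by
      refine le_antisymm (fun c hc' => ?_) (Subgroup.zpowers_le.2 hx)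
      by_cases hc1 : c = 1
      · rw [hc1]; exact one_mem _
      · rw [eq_of_le_cyclic (Subgroup.zpowers_le.2 (hNM hx)) (Subgroup.zpowers_le.2 (hNM hc'))
          (by rw [Nat.card_zpowers, Nat.card_zpowers, hxo, hord c hc' hc1])]
        exact Subgroup.mem_zpowers c
    obtain ⟨A, hxA, hAcyc, hAk, -, -, hchar⟩ := exists_toral hm hK hkn hp hpk hxo
    refine ⟨A, ?_, Or.inr (Or.inr ⟨hAcyc, n, hAk.symm ▸ hkn⟩)⟩
    rw [← hchar N (hNx.le.trans (Subgroup.zpowers_le.2 hxA)) hne]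
    exact le_normalizer_of_conj hN

/-- The splitting of the centraliser of any involution. -/
theorem exists_complement (hK : Fintype.card K = 3 ^ (2 * m + 1)) {a : ↥(Gr K m)} (ha : orderOf a = 2) :
    ∃ L : Subgroup ↥(Gr K m), (∀ l ∈ L, l * a = a * l) ∧ a ∉ L ∧ ∀ x, x * a = a * x → x ∈ L ∨ a * x ∈ L := by
  obtain ⟨φ, -, -, htL, hc, htC, -⟩ := exists_split_centralizer (m := m) hK
  obtain ⟨g, hg⟩ := involution_conj hK ha
  have ea : a = g⁻¹ * tR hK * g := by rw [← hg]; group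
  have hmem : ∀ x, g * x * g⁻¹ ∈ φ.range → x ∈ φ.range.map (MulAut.conj g⁻¹).toMonoidHom := fun x h =>
    ⟨_, h, by simp only [MulEquiv.coe_toMonoidHom, MulAut.conj_apply]; group⟩
  refine ⟨φ.range.map (MulAut.conj g⁻¹).toMonoidHom, ?_, ?_, fun x hx => ?_⟩
  · rintro _ ⟨_, ⟨u, rfl⟩, rfl⟩
    show g⁻¹ * φ u * g⁻¹⁻¹ * a = a * (g⁻¹ * φ u * g⁻¹⁻¹)
    rw [ea]
    calc g⁻¹ * φ u * g⁻¹⁻¹ * (g⁻¹ * tR hK * g) = g⁻¹ * (φ u * tR hK) * g := by group
      _ = _ := by rw [hc u]; group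
  · rintro ⟨u, hu, he⟩
    refine htL ?_
    simp only [MulEquiv.coe_toMonoidHom, MulAut.conj_apply] at he
    have : u = tR hK := by
      calc u = g * (g⁻¹ * u * g⁻¹⁻¹) * g⁻¹ := by group
        _ = _ := by rw [he, hg]
    rwa [this] at hu
  · have hx' : g * x * g⁻¹ * tR hK = tR hK * (g * x * g⁻¹) := by
      rw [← hg]
      calc g * x * g⁻¹ * (g * a * g⁻¹) = g * (x * a) * g⁻¹ := by group
        _ = _ := by rw [hx]; group
    rcases htC _ hx' with h | h
    · exact Or.inl (hmem x h)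
    · refine Or.inr (hmem _ ?_)
      rw [← hg] at h
      rwa [show g * (a * x) * g⁻¹ = g * a * g⁻¹ * (g * x * g⁻¹) by group]

/-- Every solvable subgroup normalises one of the local subgroups. -/
theorem solvable_inLocal (hm : 1 ≤ m) (hK : Fintype.card K = 3 ^ (2 * m + 1)) (S : Subgroup ↥(Gr K m))
    (hS : Group.IsSolvable ↥S) : InLocal S := by
  classical
  haveI : Fact (Nat.Prime 2) := ⟨Nat.prime_two⟩
  by_cases hbot : S = ⊥
  · let P : Sylow 2 ↥(Gr K m) := default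
    exact ⟨P, hbot ▸ bot_le, Or.inl ⟨P, rfl⟩⟩
  obtain ⟨N, p, hp, hNS, hne, hN, hc, hexp⟩ := exists_abelian_normalized S S hS le_rfl hbot Subgroup.le_normalizer
  rcases inLocal_of_abelian hm hK S N hp hne hN hc hexp with h | ⟨rfl, hN2⟩
  · exact h
  obtain ⟨a, ha, ha1⟩ := (Subgroup.bot_or_exists_ne_one N).resolve_left hne
  have hao : orderOf a = 2 := orderOf_eq_prime (hexp a ha) ha1
  have hNa : Subgroup.zpowers a = N :=
    Subgroup.eq_of_le_of_card_ge (Subgroup.zpowers_le.2 ha) (by rw [Nat.card_zpowers, hao, hN2])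
  have hcen : ∀ g ∈ S, g * a = a * g := fun g hg => by
    have hmem := hN g hg a ha
    rw [← hNa] at hmem
    obtain ⟨j, hj⟩ := Subgroup.mem_zpowers_iff.1 hmem
    have ha2 : a * a = 1 := by rw [← pow_two, ← hao]; exact pow_orderOf_eq_one a
    rcases Int.even_or_odd j with ⟨i, hi⟩ | ⟨i, hi⟩
    · rw [hi, ← two_mul, zpow_mul, zpow_two, ha2, one_zpow] at hj
      exact absurd (conj_eq_one_iff.1 hj.symm) ha1
    · rw [hi, zpow_add, zpow_mul, zpow_two, ha2, one_zpow, one_mul, zpow_one] at hj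
      exact mul_inv_eq_iff_eq_mul.1 hj.symm
  obtain ⟨L, hL, haL, hLC⟩ := exists_complement hK hao
  have hSa : a ∈ S := hNS ha
  by_cases hSL : S ⊓ L = ⊥
  · obtain ⟨P, hP⟩ := (IsPGroup.of_card (n := 1) (by rw [Nat.card_zpowers, hao, pow_one]) :
      IsPGroup 2 ↥(Subgroup.zpowers a)).exists_le_sylow
    refine ⟨P, fun g hg => Subgroup.le_normalizer ?_, Or.inl ⟨P, rfl⟩⟩
    rcases hLC g (hcen g hg) with h | h
    · rw [(Subgroup.eq_bot_iff_forall _).1 hSL g ⟨hg, h⟩]; exact one_mem _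
    · have e : g = a⁻¹ := eq_inv_of_mul_eq_one_right ((Subgroup.eq_bot_iff_forall _).1 hSL _ ⟨mul_mem hSa hg, h⟩)
      rw [e]; exact inv_mem (hP (Subgroup.mem_zpowers a))
  have hnorm : S ≤ Subgroup.normalizer ((S ⊓ L : Subgroup ↥(Gr K m)) : Set ↥(Gr K m)) :=
    le_normalizer_of_conj fun g hg c ⟨hcS, hcL⟩ => Subgroup.mem_inf.2 ⟨mul_mem (mul_mem hg hcS) (inv_mem hg), by
      rcases hLC g (hcen g hg) with h | h
      · exact mul_mem (mul_mem h hcL) (inv_mem h)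
      · have e : a * g * c * (a * g)⁻¹ = g * c * g⁻¹ := by
          have hk : (g * c * g⁻¹) * a = a * (g * c * g⁻¹) := hcen _ (mul_mem (mul_mem hg hcS) (inv_mem hg))
          calc a * g * c * (a * g)⁻¹ = a * (g * c * g⁻¹) * a⁻¹ := by group
            _ = _ := by rw [← hk, mul_inv_cancel_right]
        rw [← e]; exact mul_mem (mul_mem h hcL) (inv_mem h)⟩
  obtain ⟨N', p', hp', hN'T, hne', hN', hc', hexp'⟩ :=
    exists_abelian_normalized S (S ⊓ L) hS inf_le_left hSL hnorm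
  rcases inLocal_of_abelian hm hK S N' hp' hne' hN' hc' hexp' with h | ⟨rfl, hN'2⟩
  · exact h
  obtain ⟨b, hb, hb1⟩ := (Subgroup.bot_or_exists_ne_one N').resolve_left hne'
  have hbo : orderOf b = 2 := orderOf_eq_prime (hexp' b hb) hb1
  have hba : a ≠ b := fun e => haL (e ▸ (hN'T hb).2)
  have hab : a * b = b * a := (hcen b (hN'T hb).1).symm
  -- the group generated by the two central involutions
  let V : Subgroup ↥(Gr K m) := N ⊔ N'
  have hVnorm : ∀ g ∈ S, ∀ c ∈ V, g * c * g⁻¹ ∈ V := by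
    intro g hg c hc
    have h : V.map (MulAut.conj g).toMonoidHom ≤ V := by
      rw [Subgroup.map_sup]
      refine sup_le (le_trans ?_ le_sup_left) (le_trans ?_ le_sup_right)
      · rintro _ ⟨u, hu, rfl⟩; exact hN g hg u hu
      · rintro _ ⟨u, hu, rfl⟩; exact hN' g hg u hu
    exact h ⟨c, hc, rfl⟩
  have hVcard : Nat.card ↥V ∣ 4 := by
    have hnor : N' ≤ Subgroup.normalizer (N : Set ↥(Gr K m)) :=
      le_normalizer_of_conj fun g hg => hN g (hN'T hg).1
    have hcd : Nat.card ↥(N ⊔ N') * Nat.card ↥(N ⊓ N') = Nat.card ↥N * Nat.card ↥N' := by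
      have hinf : N ⊓ N' = ⊥ := (Subgroup.eq_bot_iff_forall _).2 fun c ⟨hc1, hc2⟩ => by
        by_contra hcne
        have e1 : Subgroup.zpowers c = N := Subgroup.eq_of_le_of_card_ge (Subgroup.zpowers_le.2 hc1)
          (by rw [Nat.card_zpowers, orderOf_eq_prime (hexp c hc1) hcne, hN2])
        exact haL (hN'T (Subgroup.zpowers_le.2 hc2 (e1 ▸ ha : a ∈ Subgroup.zpowers c))).2
      rw [hinf, Subgroup.card_bot, mul_one, ← Nat.card_prod]
      have hcomm : ∀ u ∈ N, ∀ v ∈ N', u * v = v * u := fun u hu v hv => by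
        by_cases hu1 : u = 1
        · simp [hu1]
        have e1 : Subgroup.zpowers u = N := Subgroup.eq_of_le_of_card_ge (Subgroup.zpowers_le.2 hu)
          (by rw [Nat.card_zpowers, orderOf_eq_prime (hexp u hu) hu1, hN2])
        obtain ⟨j, hj⟩ := Subgroup.mem_zpowers_iff.1 (hNa.symm ▸ hu : u ∈ Subgroup.zpowers a)
        rw [← hj]
        exact ((show Commute a v from (hcen v (hN'T hv).1).symm).zpow_left j).eq
      let f : ↥N × ↥N' →* ↥(Gr K m) :=
        MonoidHom.noncommCoprod N.subtype N'.subtype fun u v => hcomm u u.2 v v.2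
      have hr : f.range = N ⊔ N' := by
        exact (MonoidHom.noncommCoprod_range N.subtype N'.subtype fun u v => hcomm u u.2 v v.2).trans
          (by rw [Subgroup.range_subtype, Subgroup.range_subtype])
      have hi : Function.Injective f := by
        rw [injective_iff_map_eq_one]
        rintro ⟨u, v⟩ h
        have h' : (u : ↥(Gr K m)) * v = 1 := h
        have huv : (u : ↥(Gr K m)) = (v : ↥(Gr K m))⁻¹ := eq_inv_of_mul_eq_one_left h'
        have hu0 : (u : ↥(Gr K m)) = 1 := (Subgroup.eq_bot_iff_forall _).1 hinf _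
          (Subgroup.mem_inf.2 ⟨u.2, huv ▸ inv_mem v.2⟩)
        have hv0 : (v : ↥(Gr K m)) = 1 := by rw [hu0, one_mul] at h'; exact h'
        exact Prod.ext (Subtype.ext hu0) (Subtype.ext hv0)
      rw [← hr]
      exact (Nat.card_congr (MonoidHom.ofInjective hi).toEquiv).symm
    have hinf1 : Nat.card ↥(N ⊓ N') ≠ 0 := Nat.card_pos.ne'
    rw [hN2, hN'2] at hcd
    exact Dvd.intro _ hcd
  exact inLocal_klein hm hK S V (Subgroup.mem_sup_left ha) (Subgroup.mem_sup_right hb) hao hbo hba hab hVnorm hVcard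

end Cfsg.Agent.H47.Ree
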